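import Mathlib
import Cfsg.Agent.Lib.Helper35.JR.Defs

/-!
# Project JR (S3206), package [LOC]

A 2-power-order automorphism fixing a Sylow 2-subgroup `S ∋ t` pointwise acts on
`C_G(t) = ⟨t⟩ × E` as conjugation by an element of `S`.
-/

set_option autoImplicit false

namespace Cfsg.Agent.Lib.Helper63.JR

open Cfsg Cfsg.Agent.Lib.Helper35.JR

universe u

/-- elements of the join of two elementwise commuting subgroups are products -/
theorem jr_mem_sup_comm {G : Type u} [Group G] (Z E : Subgroup G)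
    (hcomm : ∀ a ∈ Z, ∀ b ∈ E, a * b = b * a) {x : G} (hx : x ∈ Z ⊔ E) :
    ∃ z ∈ Z, ∃ e ∈ E, x = z * e := by
  let M : Subgroup G :=
    { carrier := {x | ∃ z ∈ Z, ∃ e ∈ E, x = z * e}
      mul_mem' := by
        rintro _ _ ⟨z, hz, e, he, rfl⟩ ⟨z', hz', e', he', rfl⟩
        refine ⟨z * z', Z.mul_mem hz hz', e * e', E.mul_mem he he', ?_⟩
        have h := hcomm z' hz' e he
        calc z * e * (z' * e') = z * (e * z') * e' := by group
          _ = z * (z' * e) * e' := by rw [h]
          _ = z * z' * (e * e') := by group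
      one_mem' := ⟨1, Z.one_mem, 1, E.one_mem, by simp⟩
      inv_mem' := by
        rintro _ ⟨z, hz, e, he, rfl⟩
        refine ⟨z⁻¹, Z.inv_mem hz, e⁻¹, E.inv_mem he, ?_⟩
        have h := hcomm z⁻¹ (Z.inv_mem hz) e⁻¹ (E.inv_mem he)
        rw [mul_inv_rev, h] }
  have h1 : Z ⊔ E ≤ M :=
    sup_le (fun z hz => ⟨z, hz, 1, E.one_mem, by simp⟩) (fun e he => ⟨1, Z.one_mem, e, he, by simp⟩)
  exact h1 hx

/-- [LOC] -/
theorem pkgLoc : PkgLoc.{u} := by
  intro G _ _ hab t ht E hE hEL ψ k hψ S htS hfix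
  obtain ⟨hZC, hEC, hcomm, hmeet, hsup⟩ := hE
  obtain ⟨hsq, hT4, hAut⟩ := hEL
  have hψt : ψ t = t := hfix t htS
  have hZS : Subgroup.zpowers t ≤ (S : Subgroup G) := by
    rw [Subgroup.zpowers_le]
    exact htS
  have hψz : ∀ z ∈ Subgroup.zpowers t, ψ z = z := fun z hz => hfix z (hZS hz)
  have ht2 : t * t = 1 := by
    have h := pow_orderOf_eq_one t
    rw [ht, pow_two] at h
    exact h
  have hzz : ∀ z ∈ Subgroup.zpowers t, z * z = 1 := by
    intro z hz
    obtain ⟨n, rfl⟩ := Subgroup.mem_zpowers_iff.mp hz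
    rw [← zpow_add, ← two_mul, zpow_mul, zpow_two, ht2, one_zpow]
  have hCmem : ∀ x : G, x ∈ Subgroup.centralizer ({t} : Set G) ↔ t * x = x * t := by
    intro x
    simp only [Subgroup.mem_centralizer_iff, Set.mem_singleton_iff, forall_eq]
  -- decomposition of the centralizer
  have hdec : ∀ x ∈ Subgroup.centralizer ({t} : Set G),
      ∃ z ∈ Subgroup.zpowers t, ∃ e ∈ E, x = z * e := by
    intro x hx
    rw [← hsup] at hx
    exact jr_mem_sup_comm _ _ hcomm hx
  have hψC : ∀ x ∈ Subgroup.centralizer ({t} : Set G),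
      ψ x ∈ Subgroup.centralizer ({t} : Set G) := by
    intro x hx
    rw [hCmem] at hx ⊢
    calc t * ψ x = ψ t * ψ x := by rw [hψt]
      _ = ψ (t * x) := (map_mul ψ t x).symm
      _ = ψ (x * t) := by rw [hx]
      _ = ψ x * t := by rw [map_mul, hψt]
  have hsqE : ∀ x ∈ Subgroup.centralizer ({t} : Set G), x * x ∈ E := by
    intro x hx
    obtain ⟨z, hz, e, he, rfl⟩ := hdec x hx
    have h := hcomm z hz e he
    have h2 : z * e * (z * e) = e * e := by
      calc z * e * (z * e) = z * (e * z) * e := by group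
        _ = z * (z * e) * e := by rw [h]
        _ = (z * z) * (e * e) := by group
        _ = e * e := by rw [hzz z hz, one_mul]
    rw [h2]
    exact E.mul_mem he he
  -- ψ maps E into E
  have hψE : ∀ e ∈ E, ψ e ∈ E := by
    intro e he
    have hmem : (⟨e, he⟩ : ↥E) ∈ Subgroup.closure {y : ↥E | ∃ x : ↥E, x ^ 2 = y} := by
      rw [hsq]
      exact Subgroup.mem_top _
    have key : ∀ y : ↥E, y ∈ Subgroup.closure {y : ↥E | ∃ x : ↥E, x ^ 2 = y} →
        ψ (y : G) ∈ E := by
      intro y hy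
      induction hy using Subgroup.closure_induction with
      | mem y hy =>
        obtain ⟨x, rfl⟩ := hy
        have h1 : ((x ^ 2 : ↥E) : G) = (x : G) * (x : G) := by
          rw [pow_two]
          rfl
        rw [h1, map_mul]
        exact hsqE _ (hψC _ (hEC x.2))
      | one => simp
      | mul a b _ _ iha ihb =>
        have h1 : ((a * b : ↥E) : G) = (a : G) * (b : G) := rfl
        rw [h1, map_mul]
        exact E.mul_mem iha ihb
      | inv a _ iha =>
        have h1 : ((a⁻¹ : ↥E) : G) = (a : G)⁻¹ := rfl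
        rw [h1, map_inv]
        exact E.inv_mem iha
    exact key ⟨e, he⟩ hmem
  -- the restriction β of ψ to E
  let f : ↥E →* ↥E := (ψ.toMonoidHom.comp E.subtype).codRestrict E (fun e => hψE e e.2)
  have hf : ∀ e : ↥E, ((f e : ↥E) : G) = ψ (e : G) := fun e => rfl
  have hfinj : Function.Injective f := by
    intro a b hab'
    have h1 : ψ (a : G) = ψ (b : G) := by
      rw [← hf a, ← hf b, hab']
    exact Subtype.ext (ψ.injective h1)
  have hfbij : Function.Bijective f := ⟨hfinj, Finite.surjective_of_injective hfinj⟩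
  let β : ↥E ≃* ↥E := MulEquiv.ofBijective f hfbij
  have hβ : ∀ e : ↥E, ((β e : ↥E) : G) = ψ (e : G) := fun e => rfl
  have hβpow : ∀ (n : ℕ) (e : ↥E), (((β ^ n) e : ↥E) : G) = (ψ ^ n) (e : G) := by
    intro n
    induction n with
    | zero => intro e; simp
    | succ n ih =>
      intro e
      rw [pow_succ, pow_succ, MulAut.mul_apply, MulAut.mul_apply, ih, hβ]
  have hβk : β ^ (2 ^ k) = 1 := by
    ext e
    rw [hβpow, hψ]
    rfl
  -- a Sylow 2-subgroup T of E containing S ∩ E
  obtain ⟨T, hT⟩ := (S.isPGroup'.comap_subtype (K := E)).exists_le_sylow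
  -- T ≤ S
  have hK : IsPGroup 2 ↥((T : Subgroup ↥E).map E.subtype) := T.isPGroup'.map E.subtype
  have hH : IsPGroup 2 ↥(Subgroup.zpowers t) := S.isPGroup'.to_le hZS
  have hKE : ∀ y ∈ (T : Subgroup ↥E).map E.subtype, y ∈ E := by
    rintro _ ⟨y, -, rfl⟩
    exact y.2
  have hnorm : Subgroup.zpowers t ≤ Subgroup.normalizer (((T : Subgroup ↥E).map E.subtype : Subgroup G) : Set G) := by
    intro z hz
    rw [Subgroup.mem_normalizer_iff]
    intro h
    constructor
    · intro hh
      have h1 : z * h * z⁻¹ = h := by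
        rw [hcomm z hz h (hKE h hh), mul_inv_cancel_right]
      rw [h1]
      exact hh
    · intro hh
      have h1 := hcomm z⁻¹ (inv_mem hz) _ (hKE _ hh)
      have h2 : h = z * h * z⁻¹ := by
        calc h = z⁻¹ * (z * h * z⁻¹) * z := by group
          _ = (z * h * z⁻¹) * z⁻¹ * z := by rw [h1]
          _ = z * h * z⁻¹ := by group
      rw [h2]
      exact hh
  have hP : IsPGroup 2 ↥(Subgroup.zpowers t ⊔ (T : Subgroup ↥E).map E.subtype) :=
    hH.to_sup_of_normal_right' hK hnorm
  have hSle : (S : Subgroup G) ≤ Subgroup.zpowers t ⊔ (T : Subgroup ↥E).map E.subtype := by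
    intro s hs
    have hsC : s ∈ Subgroup.centralizer ({t} : Set G) := by
      rw [hCmem]
      exact (hab S s hs t htS).symm
    obtain ⟨z, hz, e, he, rfl⟩ := hdec s hsC
    have heS : e ∈ (S : Subgroup G) := by
      have h1 : e = z⁻¹ * (z * e) := by group
      rw [h1]
      exact (S : Subgroup G).mul_mem ((S : Subgroup G).inv_mem (hZS hz)) hs
    have heT : (⟨e, he⟩ : ↥E) ∈ (T : Subgroup ↥E) := hT (Subgroup.mem_subgroupOf.mpr heS)
    exact Subgroup.mul_mem _ (Subgroup.mem_sup_left hz)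
      (Subgroup.mem_sup_right ⟨⟨e, he⟩, heT, rfl⟩)
  have hEq : Subgroup.zpowers t ⊔ (T : Subgroup ↥E).map E.subtype = (S : Subgroup G) :=
    S.is_maximal' hP hSle
  have hTS : ∀ x : ↥E, x ∈ (T : Subgroup ↥E) → (x : G) ∈ (S : Subgroup G) := by
    intro x hx
    rw [← hEq]
    exact Subgroup.mem_sup_right ⟨x, hx, rfl⟩
  have hβT : ∀ x ∈ (T : Subgroup ↥E), β x = x := by
    intro x hx
    exact Subtype.ext (hfix x (hTS x hx))
  obtain ⟨v, hv, hconj⟩ := hAut β k hβk T hβT
  refine ⟨(v : G), hTS v hv, ?_⟩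
  intro x hx
  obtain ⟨z, hz, e, he, rfl⟩ := hdec x hx
  have h1 : ψ e = (v : G) * e * (v : G)⁻¹ := by
    have h2 := congrArg (fun y : ↥E => (y : G)) (hconj ⟨e, he⟩)
    exact h2
  have h3 := hcomm z hz (v : G) v.2
  rw [map_mul, hψz z hz, h1]
  calc z * ((v : G) * e * (v : G)⁻¹) = (z * (v : G)) * e * (v : G)⁻¹ := by group
    _ = ((v : G) * z) * e * (v : G)⁻¹ := by rw [h3]
    _ = (v : G) * (z * e) * (v : G)⁻¹ := by group

end Cfsg.Agent.Lib.Helper63.JR
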